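import Cfsg.Agent.H415.C3.KitTwo
import Cfsg.Agent.LieClassical.SLTwoTorus

/-!
# S1920, case B, `POmega`, Arf invariant one (helper14): tools

* `Kit.T5b` : `T5` with `b² ∈ ⟨s⟩`;
* `no_SL2` : a group of order prime to nothing, embedded in `SL₂(F)`, char `F ≠ 3`, has no homomorphism to `S₆` whose
  image contains `A₆` (the Sylow 3-subgroups of `SL₂(F)` are cyclic).
-/

set_option autoImplicit false
set_option linter.unusedVariables false

open Subgroup

namespace Cfsg.Agent.H14.C3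

open Cfsg.Agent.H415.C3

variable {G : Type*} [Group G]

/-- **T5**, with `b² ∈ ⟨s⟩`. -/
theorem T5b [Finite G] {N0 A E : Subgroup G} {z s x r : G} {ψ : ↥A →* Equiv.Perm (Fin 6)}
    (T : Kit N0 A E z s x r ψ) {a b : G} (ha : ∀ n ∈ N0, a * n = n * a) (hb : ∀ n ∈ N0, b * n = n * b)
    (hab : a * b = b * a) (ha4 : a ^ 4 = 1) (hb2 : b ^ 2 ∈ zpowers s)
    (h : ∀ i j : ℕ, a ^ i * b ^ j ∈ zpowers s → 4 ∣ i ∧ 2 ∣ j) : False := by
  have hb8 : b ^ 8 = 1 := by
    obtain ⟨k, hk⟩ := hb2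
    have hk' : s ^ k = b ^ 2 := hk
    rw [show 8 = 2 * 4 by norm_num, pow_mul, ← hk', ← zpow_natCast, ← zpow_mul, mul_comm, zpow_mul, zpow_natCast,
      T.s_four, one_zpow]
  have hmem : ∀ i j : ℕ, ∀ n ∈ N0, a ^ i * b ^ j * n = n * (a ^ i * b ^ j) := by
    intro i j n hn
    have h1 : Commute a n := ha n hn
    have h2 : Commute b n := hb n hn
    exact ((h1.pow_left i).mul_left (h2.pow_left j)).eq
  have hpow : ∀ i j : ℕ, (a ^ i * b ^ j) ^ 2 ^ 3 = 1 := by
    intro i j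
    have h1 : Commute (a ^ i) (b ^ j) := (show Commute a b from hab).pow_pow i j
    rw [h1.mul_pow, ← pow_mul, ← pow_mul, show i * 2 ^ 3 = 4 * (2 * i) by ring, show j * 2 ^ 3 = 8 * j by ring,
      pow_mul a 4, pow_mul b 8, ha4, hb8, one_pow, one_pow, mul_one]
  let u : ↥A := ⟨a, T.comm_mem ha⟩
  let v : ↥A := ⟨b, T.comm_mem hb⟩
  have huv : u * v = v * u := Subtype.ext hab
  have hker : ∀ i j : ℕ, ψ u ^ i * ψ v ^ j = 1 → 4 ∣ i ∧ 2 ∣ j := by
    intro i j hij
    apply h i j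
    refine T.T4 (hmem i j) (hpow i j) ?_
    rw [← map_pow, ← map_pow, ← map_mul] at hij
    exact hij
  have hsu : Equiv.Perm.sign (ψ u) = 1 := T.even_of_comm ha u.2
  have hsv : Equiv.Perm.sign (ψ v) = 1 := T.even_of_comm hb v.2
  let σ : alternatingGroup (Fin 6) := ⟨ψ u, Equiv.Perm.mem_alternatingGroup.2 hsu⟩
  let τ : alternatingGroup (Fin 6) := ⟨ψ v, Equiv.Perm.mem_alternatingGroup.2 hsv⟩
  have hστ : Commute σ τ := Subtype.ext (by
    change ψ u * ψ v = ψ v * ψ u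
    rw [← map_mul, ← map_mul, huv])
  have hk : ∀ i j : ℕ, σ ^ i * τ ^ j = 1 → 4 ∣ i ∧ 2 ∣ j := by
    intro i j hij
    exact hker i j (congrArg Subtype.val hij)
  have hσ4 : σ ^ 4 = 1 := Subtype.ext (by
    change ψ u ^ 4 = 1
    rw [← map_pow, ← map_one ψ]
    exact congrArg ψ (Subtype.ext ha4))
  have hτ2 : τ ^ 2 = 1 := Subtype.ext (by
    change ψ v ^ 2 = 1
    rw [← map_pow]
    have hN : b ^ 2 ∈ N0 := by
      obtain ⟨k, hk⟩ := hb2
      have hk' : s ^ k = b ^ 2 := hk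
      rw [← hk']
      exact zpow_mem T.sN k
    exact T.N_ker (b ^ 2) (T.N_A hN) hN)
  have hoσ : orderOf σ = 4 := by
    refine Nat.dvd_antisymm (orderOf_dvd_of_pow_eq_one hσ4) ?_
    exact (hk _ 0 (by rw [pow_orderOf_eq_one, pow_zero, mul_one])).1
  have hoτ : orderOf τ = 2 := by
    refine Nat.dvd_antisymm (orderOf_dvd_of_pow_eq_one hτ2) ?_
    exact (hk 0 _ (by rw [pow_orderOf_eq_one, pow_zero, mul_one])).2
  let f := (zpowers σ).subtype.noncommCoprod (zpowers τ).subtype (by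
    rintro ⟨_, ⟨i, rfl⟩⟩ ⟨_, ⟨j, rfl⟩⟩
    exact (hστ.zpow_zpow i j))
  have hf : Function.Injective f := by
    rw [MonoidHom.noncommCoprod_injective]
    refine ⟨(zpowers σ).subtype_injective, (zpowers τ).subtype_injective, ?_⟩
    rw [Subgroup.range_subtype, Subgroup.range_subtype, disjoint_iff, eq_bot_iff]
    rintro y ⟨h1, h2⟩
    have h1' : y ∈ Submonoid.powers σ := mem_powers_iff_mem_zpowers.2 h1
    obtain ⟨i, rfl⟩ := h1'
    have h2' := (mem_powers_iff_mem_zpowers).2 h2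
    obtain ⟨j, hj⟩ := h2'
    have hj' : τ ^ j = σ ^ i := hj
    have h3 : σ ^ (3 * i) * τ ^ j = 1 := by
      rw [hj', ← pow_add, show 3 * i + i = 4 * i by ring, pow_mul, hσ4, one_pow]
    obtain ⟨h4, h5⟩ := hk _ _ h3
    obtain ⟨k, rfl⟩ := h5
    rw [pow_mul, hτ2, one_pow] at hj'
    rw [Subgroup.mem_bot]
    exact hj'.symm
  have hcard : Nat.card f.range = 8 := by
    rw [Nat.card_congr (MonoidHom.ofInjective hf).toEquiv.symm, Nat.card_prod, Nat.card_zpowers, Nat.card_zpowers,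
      hoσ, hoτ]
  refine no_abelian8 f.range ?_ hcard
  rintro _ ⟨⟨⟨_, ⟨i, rfl⟩⟩, ⟨_, ⟨j, rfl⟩⟩⟩, rfl⟩ _ ⟨⟨⟨_, ⟨i', rfl⟩⟩, ⟨_, ⟨j', rfl⟩⟩⟩, rfl⟩
  have hc : ∀ p q : ↥(zpowers σ) × ↥(zpowers τ), p * q = q * p := by
    rintro ⟨⟨_, ⟨i, rfl⟩⟩, ⟨_, ⟨j, rfl⟩⟩⟩ ⟨⟨_, ⟨i', rfl⟩⟩, ⟨_, ⟨j', rfl⟩⟩⟩
    refine Prod.ext (Subtype.ext ?_) (Subtype.ext ?_)
    · exact ((Commute.refl σ).zpow_zpow i i').eq
    · exact ((Commute.refl τ).zpow_zpow j j').eq
  rw [← map_mul, ← map_mul, hc]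

/-- A subgroup of `SL_2(F)` of prime power order `r ^ n`, `r` odd and not the characteristic, is cyclic. -/
theorem isCyclic_SL2 {F : Type*} [Field F] (p : ℕ) [Fact p.Prime] [CharP F p] (r : ℕ)
    [Fact r.Prime] (hr : r ≠ 2) (hrp : r ≠ p) (R : Subgroup (Matrix.SpecialLinearGroup (Fin 2) F))
    [Finite R] (hR : IsPGroup r R) : IsCyclic R := by
  rcases subsingleton_or_nontrivial R with hsub | hnt
  · exact isCyclic_of_subsingleton
  have hcen := hR.center_nontrivial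
  obtain ⟨⟨⟨z, hzR⟩, hzc⟩, hz1⟩ := exists_ne (1 : Subgroup.center R)
  have hz1' : z ≠ 1 := by
    intro h
    apply hz1
    apply Subtype.ext
    apply Subtype.ext
    exact h
  obtain ⟨k, hk⟩ := hR.exists_card_eq
  refine LieClassical.SLTwoTorus.isCyclic_of_commute p R ?_
    (z : Matrix (Fin 2) (Fin 2) F) ?_ ?_
  · rw [hk]
    exact Nat.Coprime.pow_left _ ((Nat.coprime_primes Fact.out Fact.out).mpr hrp)
  · intro c hc
    have hdet : (z : Matrix (Fin 2) (Fin 2) F).det = 1 := z.det_coe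
    rw [hc, Matrix.det_smul, Matrix.det_one, mul_one, Fintype.card_fin] at hdet
    have hz2 : z ^ 2 = 1 := by
      apply Subtype.ext
      have : ((z ^ 2 : Matrix.SpecialLinearGroup (Fin 2) F) : Matrix (Fin 2) (Fin 2) F) =
          (z : Matrix (Fin 2) (Fin 2) F) ^ 2 := by simp
      rw [this, hc, smul_pow, hdet, one_pow, one_smul]
      rfl
    have hd2 : orderOf z ∣ 2 := orderOf_dvd_of_pow_eq_one hz2
    have hdr : orderOf z ∣ r ^ k := by
      have := orderOf_dvd_natCard (⟨z, hzR⟩ : R)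
      rwa [Subgroup.orderOf_mk, hk] at this
    have hcop : Nat.Coprime 2 (r ^ k) :=
      Nat.Coprime.pow_right _ ((Nat.coprime_primes Nat.prime_two Fact.out).mpr (Ne.symm hr))
    have : orderOf z = 1 := Nat.eq_one_of_dvd_coprimes hcop hd2 hdr
    exact hz1' (orderOf_eq_one_iff.mp this)
  · intro h hh
    have := congrArg Subtype.val ((Subgroup.mem_center_iff.mp hzc) ⟨h, hh⟩)
    have := congrArg Subtype.val this
    simpa using this

/-- the 3-cycle `(3 4 5)` -/
def c3' : Equiv.Perm (Fin 6) := Equiv.swap 3 4 * Equiv.swap 4 5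

theorem sign_c3' : Equiv.Perm.sign c3' = 1 := by decide

theorem c3_pow : c3 ^ 3 = 1 := by decide

theorem c3'_pow : c3' ^ 3 = 1 := by decide

theorem c3_comm : c3 * c3' = c3' * c3 := by decide

theorem c3_ne : c3 ≠ 1 := by decide

theorem c3_sq_ne : c3 ^ 2 ≠ 1 := by decide

theorem c3_sq_ne' : c3 ^ 2 ≠ c3 := by decide

theorem c3'_ne : c3' ≠ 1 ∧ c3' ≠ c3 ∧ c3' ≠ c3 ^ 2 := by decide

/-- **no cover of `A₆` in `SL₂(F)`, char `F ≠ 3`** -/
theorem no_SL2 {F : Type*} [Field F] [Finite F] (h3 : (3 : F) ≠ 0) {X : Type*} [Group X] [Finite X]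
    (f : X →* Matrix.SpecialLinearGroup (Fin 2) F) (hf : Function.Injective f) (ψ : X →* Equiv.Perm (Fin 6))
    (hψ : ∀ σ : Equiv.Perm (Fin 6), Equiv.Perm.sign σ = 1 → ∃ x, ψ x = σ) : False := by
  have f3 : Fact (Nat.Prime 3) := ⟨Nat.prime_three⟩
  obtain ⟨p, hp⟩ := CharP.exists F
  have hpp : p.Prime := CharP.char_is_prime F p
  have fp : Fact p.Prime := ⟨hpp⟩
  have hp3 : (3 : ℕ) ≠ p := by
    rintro rfl
    apply h3
    exact_mod_cast CharP.cast_eq_zero F 3
  obtain ⟨P⟩ := (inferInstance : Nonempty (Sylow 3 X))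
  -- `P` is cyclic
  have hPc : IsCyclic (P : Subgroup X) := by
    have h1 : IsPGroup 3 ((P : Subgroup X).map f) := P.isPGroup'.map f
    have h2 := isCyclic_SL2 p 3 (by norm_num) hp3 ((P : Subgroup X).map f) h1
    exact isCyclic_of_surjective ((P : Subgroup X).equivMapOfInjective f hf).symm
      ((P : Subgroup X).equivMapOfInjective f hf).symm.surjective
  -- its image
  let P' : Sylow 3 ψ.range := P.mapSurjective ψ.rangeRestrict_surjective
  have hP' : IsCyclic (P' : Subgroup ψ.range) := by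
    have h1 : (P' : Subgroup ψ.range) = (P : Subgroup X).map ψ.rangeRestrict := rfl
    rw [h1]
    exact isCyclic_of_surjective (ψ.rangeRestrict.subgroupMap (P : Subgroup X))
      (ψ.rangeRestrict.subgroupMap_surjective (P : Subgroup X))
  have hall : ∀ R : Sylow 3 ψ.range, IsCyclic (R : Subgroup ψ.range) := fun R =>
    isCyclic_of_surjective (P'.equiv R) (P'.equiv R).surjective
  obtain ⟨x, hx⟩ := hψ c3 sign_c3
  obtain ⟨y, hy⟩ := hψ c3' sign_c3'
  let a : ψ.range := ⟨c3, ⟨x, hx⟩⟩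
  let b : ψ.range := ⟨c3', ⟨y, hy⟩⟩
  have hab : Commute a b := Subtype.ext c3_comm
  have ha3 : a ^ 3 = 1 := Subtype.ext c3_pow
  have hb3 : b ^ 3 = 1 := Subtype.ext c3'_pow
  have hg : ∀ g : ψ.range, g ^ 3 = 1 → IsPGroup 3 (zpowers g) := by
    intro g hg
    rw [IsPGroup.iff_card]
    obtain ⟨j, -, hj⟩ := (Nat.dvd_prime_pow Nat.prime_three).1
      (show orderOf g ∣ 3 ^ 1 from orderOf_dvd_of_pow_eq_one (by rw [pow_one]; exact hg))
    exact ⟨j, by rw [Nat.card_zpowers, hj]⟩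
  have hn : zpowers b ≤ normalizer (zpowers a : Set ψ.range) := by
    refine le_trans ?_ (centralizer_le_normalizer _)
    rw [zpowers_le, mem_centralizer_iff]
    rintro _ ⟨k, rfl⟩
    exact (hab.zpow_left k).eq
  obtain ⟨R, hR⟩ := (IsPGroup.to_sup_of_normal_left' (hg a ha3) (hg b hb3) hn).exists_le_sylow
  have hcyc := hall R
  have haR : a ∈ (R : Subgroup ψ.range) := hR (le_sup_left (a := zpowers a) (mem_zpowers a))
  have hbR : b ∈ (R : Subgroup ψ.range) := hR (le_sup_right (b := zpowers b) (mem_zpowers b))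
  classical
  have : Fintype (R : Subgroup ψ.range) := Fintype.ofFinite _
  let a' : (R : Subgroup ψ.range) := ⟨a, haR⟩
  let b' : (R : Subgroup ψ.range) := ⟨b, hbR⟩
  have h4 := IsCyclic.card_pow_eq_one_le (α := (R : Subgroup ψ.range)) (n := 3) (by norm_num)
  have h5 : ({1, a', a' ^ 2, b'} : Finset (R : Subgroup ψ.range)) ⊆ Finset.univ.filter (fun g => g ^ 3 = 1) := by
    intro g hg
    simp only [Finset.mem_insert, Finset.mem_singleton] at hg
    rw [Finset.mem_filter]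
    refine ⟨Finset.mem_univ _, ?_⟩
    rcases hg with rfl | rfl | rfl | rfl
    · exact one_pow _
    · exact Subtype.ext ha3
    · rw [← pow_mul, show 2 * 3 = 3 * 2 by norm_num, pow_mul, show a' ^ 3 = 1 from Subtype.ext ha3, one_pow]
    · exact Subtype.ext hb3
  have val : ∀ g h : (R : Subgroup ψ.range), g = h → ((g : ψ.range) : Equiv.Perm (Fin 6)) = ((h : ψ.range) : Equiv.Perm (Fin 6)) :=
    fun g h e => by rw [e]
  have h6 : ({1, a', a' ^ 2, b'} : Finset (R : Subgroup ψ.range)).card = 4 := by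
    rw [Finset.card_insert_of_notMem, Finset.card_insert_of_notMem, Finset.card_insert_of_notMem,
      Finset.card_singleton]
    · rw [Finset.mem_singleton]
      intro h
      exact c3'_ne.2.2 (val _ _ h).symm
    · rw [Finset.mem_insert, Finset.mem_singleton]
      rintro (h | h)
      · exact c3_sq_ne' (val _ _ h).symm
      · exact c3'_ne.2.1 (val _ _ h).symm
    · rw [Finset.mem_insert, Finset.mem_insert, Finset.mem_singleton]
      rintro (h | h | h)
      · exact c3_ne (val _ _ h).symm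
      · exact c3_sq_ne (val _ _ h).symm
      · exact c3'_ne.1 (val _ _ h).symm
  have h7 := Finset.card_le_card h5
  omega

end Cfsg.Agent.H14.C3
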